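import Cfsg.Agent.H498.Ab.Two
import Cfsg.Agent.S0493
import Cfsg.Agent.S0252
import Cfsg.Agent.S2503
import Cfsg.Agent.LieClassical.FieldTransfer

/-!
# S2502 from S2501
-/

set_option autoImplicit false
set_option linter.unusedSectionVars false

namespace Cfsg.Agent.H498.Ab.Aba

open Subgroup Matrix Cfsg.Agent.H498.Ab.RowA

variable {G : Type*} [Group G] [Finite G] [IsSimpleGroup G]

theorem sixty_le (hG : ¬ IsMulCommutative G) : 60 ≤ Nat.card G := by
  by_contra hcon
  have hc : ¬ IsCyclic G := by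
    intro h
    exact hG h.commutative
  have := Cfsg.Agent.S0493.result hc (by omega)
  omega

/-- the order argument -/
theorem not_aba (h3 : Ab3 G) {A B : Subgroup G} (hA : IsMulCommutative A) (hB : IsMulCommutative B)
    (h : ∀ g : G, ∃ a ∈ A, ∃ b ∈ B, ∃ c ∈ A, g = a * b * c) : False := by
  have h1 : Nat.card G ≤ Nat.card A * Nat.card B * Nat.card A := by
    rw [← Nat.card_prod, ← Nat.card_prod]
    refine Nat.card_le_card_of_surjective (fun x : (A × B) × A => (x.1.1 : G) * x.1.2 * x.2) ?_
    intro g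
    obtain ⟨a, ha, b, hb, c, hc, hg⟩ := h g
    exact ⟨((⟨a, ha⟩, ⟨b, hb⟩), ⟨c, hc⟩), hg.symm⟩
  have hA3 := h3 A hA
  have hB3 := h3 B hB
  have h2 : Nat.card G ^ 3 ≤ (Nat.card A * Nat.card B * Nat.card A) ^ 3 := Nat.pow_le_pow_left h1 3
  have h4 : (Nat.card A * Nat.card B * Nat.card A) ^ 3 = Nat.card A ^ 3 * Nat.card B ^ 3 * Nat.card A ^ 3 := by ring
  have h5 : Nat.card A ^ 3 * Nat.card B ^ 3 * Nat.card A ^ 3 < Nat.card G * Nat.card G * Nat.card G :=
    Nat.mul_lt_mul'' (Nat.mul_lt_mul'' hA3 hB3) hA3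
  rw [h4] at h2
  have h6 : Nat.card G ^ 3 = Nat.card G * Nat.card G * Nat.card G := by ring
  omega

theorem card_gal (t : ℕ) (ht : t ≠ 0) [Fintype (GaloisField 2 t)] : Fintype.card (GaloisField 2 t) = 2 ^ t := by
  rw [← Nat.card_eq_fintype_card, GaloisField.card 2 t ht]

theorem nonempty_congr {F K : Type*} [Field F] [Fintype F] [Field K] [Fintype K] (h : Fintype.card F = Fintype.card K) :
    Nonempty (Matrix.ProjectiveSpecialLinearGroup (Fin 2) F ≃* Matrix.ProjectiveSpecialLinearGroup (Fin 2) K) :=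
  ⟨Cfsg.Agent.LieClassical.FieldTransfer.pslCongr (FiniteField.ringEquivOfCardEq h)⟩

/-- **S2502** from S2501 -/
theorem aba_iff (hG : ¬ IsMulCommutative G) (h3 : NotL2 G → Ab3 G) :
    (∃ A B : Subgroup G, IsMulCommutative A ∧ IsMulCommutative B ∧
        ∀ g : G, ∃ a ∈ A, ∃ b ∈ B, ∃ c ∈ A, g = a * b * c) ↔
      ∃ t : ℕ, 2 ≤ t ∧ Nonempty (G ≃* Matrix.ProjectiveSpecialLinearGroup (Fin 2) (GaloisField 2 t)) := by
  constructor
  · rintro ⟨A, B, hA, hB, h⟩
    have hL : ¬ NotL2 G := fun hn => not_aba (h3 hn) hA hB h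
    unfold NotL2 at hL
    push Not at hL
    obtain ⟨F, _, _, ⟨e⟩⟩ := hL
    have h60 := sixty_le hG
    rw [Nat.card_congr e.toEquiv] at h60
    have hF1 : 1 < Fintype.card F := Fintype.one_lt_card
    rcases Nat.even_or_odd (Fintype.card F) with hev | hodd
    · -- even
      obtain ⟨p, hp⟩ := CharP.exists F
      obtain ⟨n, hprime, hcard⟩ := FiniteField.card F p
      have hp2 : p = 2 := by
        rw [hcard] at hev
        exact ((Nat.prime_dvd_prime_iff_eq Nat.prime_two hprime).1 (Nat.prime_two.dvd_of_dvd_pow hev.two_dvd)).symm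
      subst hp2
      have hn2 : 2 ≤ (n : ℕ) := by
        by_contra hlt
        have hn1 : (n : ℕ) = 1 := by have := n.pos; omega
        rw [ClassicalGeometry.PSL2Basic.card_PSL2_even (F := F) hev, hcard, hn1] at h60
        norm_num at h60
      refine ⟨n, hn2, ?_⟩
      let _ : Fintype (GaloisField 2 n) := Fintype.ofFinite _
      obtain ⟨f⟩ := nonempty_congr (F := F) (K := GaloisField 2 n) (by rw [card_gal n (by omega), hcard])
      exact ⟨e.trans f⟩
    · -- odd
      have hq := ClassicalGeometry.PSL2Basic.card_PSL2_odd (F := F) hodd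
      have hF3 : Fintype.card F ≠ 3 := by
        intro h3
        rw [h3] at hq
        norm_num at hq
        omega
      by_cases h7 : 7 ≤ Fintype.card F
      · exfalso
        let e' := e.symm
        refine Two.no_aba hodd h7 (A.comap e'.toMonoidHom) (B.comap e'.toMonoidHom)
          (comm_comap_of_injective e'.injective hA) (comm_comap_of_injective e'.injective hB) ?_
        intro x
        obtain ⟨a, ha, b, hb, c, hc, hx⟩ := h (e' x)
        refine ⟨e'.symm a, ?_, e'.symm b, ?_, e'.symm c, ?_, ?_⟩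
        · show e' (e'.symm a) ∈ A
          rwa [MulEquiv.apply_symm_apply]
        · show e' (e'.symm b) ∈ B
          rwa [MulEquiv.apply_symm_apply]
        · show e' (e'.symm c) ∈ A
          rwa [MulEquiv.apply_symm_apply]
        · apply e'.injective
          rw [map_mul, map_mul, MulEquiv.apply_symm_apply, MulEquiv.apply_symm_apply, MulEquiv.apply_symm_apply]
          exact hx
      · have h5 : Fintype.card F = 5 := by
          obtain ⟨k, hk⟩ := hodd
          omega
        obtain ⟨f⟩ := S0253.result (F := F) h5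
        let _ : Fintype (GaloisField 2 2) := Fintype.ofFinite _
        obtain ⟨f'⟩ := S0252.result (F := GaloisField 2 2) (by rw [card_gal 2 (by norm_num)]; norm_num)
        exact ⟨2, le_refl 2, ⟨(e.trans f).trans f'.symm⟩⟩
  · rintro ⟨t, ht, ⟨e⟩⟩
    let _ : Fintype (GaloisField 2 t) := Fintype.ofFinite _
    have hc := card_gal t (by omega)
    obtain ⟨A, B, hA, -, hB, -, -, h⟩ := S2503.result (F := GaloisField 2 t)
      (by rw [hc]; exact dvd_pow_self 2 (by omega))
      (by rw [hc]; calc 4 = 2 ^ 2 := by norm_num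
            _ ≤ 2 ^ t := Nat.pow_le_pow_right (by norm_num) ht)
    refine ⟨A.comap e.toMonoidHom, B.comap e.toMonoidHom, comm_comap_of_injective e.injective hA.commutative,
      comm_comap_of_injective e.injective hB, ?_⟩
    intro x
    obtain ⟨a, ha, b, hb, c, hc, hx⟩ := h (e x)
    refine ⟨e.symm a, ?_, e.symm b, ?_, e.symm c, ?_, ?_⟩
    · show e (e.symm a) ∈ A
      rwa [MulEquiv.apply_symm_apply]
    · show e (e.symm b) ∈ B
      rwa [MulEquiv.apply_symm_apply]
    · show e (e.symm c) ∈ A
      rwa [MulEquiv.apply_symm_apply]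
    · apply e.injective
      rw [map_mul, map_mul, MulEquiv.apply_symm_apply, MulEquiv.apply_symm_apply, MulEquiv.apply_symm_apply]
      exact hx

end Cfsg.Agent.H498.Ab.Aba
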